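import Cfsg.Agent.H226.R2.Base
import Cfsg.Agent.H776.CY.Congr
import Cfsg.Agent.H825.K547.He

/-!
# S4829, `p = 2`: the row `He` (helper205)

The character of degree 1275 of the rank five action of degree 2058 is rational and invariant under all automorphisms
(`H825.K547.He.exists_val`, `val_rho`).
-/

set_option autoImplicit false
set_option maxRecDepth 100000

namespace Cfsg.Agent.H205.R2.He

open Cfsg Cfsg.Agent.H226.R2 Cfsg.Agent.H770.CY Cfsg.Agent.Characters.Core Cfsg.Agent.H825.K547.He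

attribute [local instance] Cfsg.Agent.H707.Odd.He.instActHe

theorem row2_He : Row2 Spor.He := by
  obtain ⟨hfin, -⟩ := Cfsg.Agent.SporadicB.HeUpper.card_he_le
  obtain ⟨χ, hχ⟩ := exists_val
  have hrat : ∀ g, ∃ q : ℚ, χ g = q := by
    intro g
    obtain ⟨q, hq⟩ := hχ.exists_rat H329.K4.He.base_tr g
    refine ⟨∑ i, q i * Cfsg.Agent.H707.Odd.He.a i, ?_⟩
    rw [hq, Rat.cast_sum]
    refine Finset.sum_congr rfl fun i _ => ?_
    rw [Rat.cast_mul]
    congr 1
    fin_cases i <;> simp [ac, Cfsg.Agent.H707.Odd.He.a]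
  have hdeg : χ 1 = ((1275 : ℕ) : ℂ) := hχ.deg
  have hcf := isIrr_isClassFunction hχ.irr
  refine row2_of_odd_index (Γ := ⊤) (by rw [Subgroup.index_top]; decide)
    ⟨χ, hχ.irr, ?_, ⟨1275, by decide, hdeg⟩, hrat, fun τ _ x => ?_⟩
  · intro h6
    rw [h6, Pi.one_apply] at hdeg
    have h7 : (1 : ℕ) = 1275 := by exact_mod_cast hdeg
    norm_num at h7
  · by_cases hn : H821.K547.IsInn τ
    · obtain ⟨s, hs⟩ := hn
      rw [hs, hcf x s]
    · obtain ⟨s, hs⟩ := eq_conj_rho hn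
      rw [hs, hcf (Cfsg.Agent.H997.OutHe.rho x) s, val_rho hχ]

theorem rowFor2_He : RowFor2 (fun X _ => Spor.IsoHe X) := by
  intro X _ _ _ _ hX
  obtain ⟨e⟩ := hX
  exact H776.CY.Row2.congr e row2_He

end Cfsg.Agent.H205.R2.He
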